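import Cfsg.Agent.H975.A8Two

/-!
# The local set-up of S3329 and S3330
-/

set_option autoImplicit false

namespace Cfsg.Agent.H975.A8Loc

open Subgroup Cfsg.Agent.Lib Cfsg.Agent.H975.A8Red Cfsg.Agent.H975.A8Five Cfsg.Agent.H975.A8Two Equiv

universe u

variable {G : Type u} [Group G]

theorem card_C3X {X : Type*} [Group X] {z : G}
    (eC : centralizer ({z} : Set G) ≃* Multiplicative (ZMod 3) × X) :
    Nat.card (centralizer ({z} : Set G)) = 3 * Nat.card X := by
  rw [Nat.card_congr eC.toEquiv, Nat.card_prod]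
  congr 1
  simp

theorem core_of {X : Type*} [Group X] [Finite X] {f : X →* Perm (Fin 5)} (hf : Five X f) {z : G}
    (eC : centralizer ({z} : Set G) ≃* Multiplicative (ZMod 3) × X) (R : Subgroup G)
    (hR : R ≤ centralizer ({z} : Set G))
    (hRn : ∀ c ∈ centralizer ({z} : Set G), ∀ r ∈ R, c * r * c⁻¹ ∈ R) (h3 : ¬ 3 ∣ Nat.card R) : R = ⊥ := by
  let R1 : Subgroup (centralizer ({z} : Set G)) := R.subgroupOf _
  let R2 : Subgroup (Multiplicative (ZMod 3) × X) := R1.map eC.toMonoidHom
  have hR1 : R1.Normal := ⟨fun r hr c => hRn c c.2 r hr⟩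
  have hR2 : R2.Normal := hR1.map _ eC.surjective
  have hcard : Nat.card R2 = Nat.card R := by
    rw [Subgroup.card_map_of_injective eC.injective]
    exact Nat.card_congr (subgroupOfEquivOfLe hR).toEquiv
  have h1 : R2 = ⊥ := prod_normal hf R2 hR2 (by rwa [hcard])
  rw [← Subgroup.card_eq_one, ← hcard, h1, Subgroup.card_bot]

theorem simp_of {X : Type*} [Group X] [Finite X] {f : X →* Perm (Fin 5)} (hf : Five X f) {z : G} [Finite G]
    (eC : centralizer ({z} : Set G) ≃* Multiplicative (ZMod 3) × X) (U : Subgroup G)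
    (hU : U ≤ centralizer ({z} : Set G)) (hs : IsSimpleGroup U) (hna : ¬ ∀ a b : U, a * b = b * a) :
    Nonempty (U ≃* alternatingGroup (Fin 5)) :=
  prod_simple hf hs hna (eC.toMonoidHom.comp (inclusion hU)) (eC.injective.comp (inclusion_injective hU))

theorem le_norm {D C : Subgroup G} (hDC : D ≤ C) (hn : (D.subgroupOf C).Normal) : C ≤ normalizer (D : Set G) := by
  rw [← normal_subgroupOf_iff_le_normalizer hDC]
  exact hn

theorem card_quot {D N : Subgroup G} (hDN : D ≤ N) {X : Type*} [Group X]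
    [hn : (D.subgroupOf N).Normal] (e : N ⧸ D.subgroupOf N ≃* X) : Nat.card N = Nat.card X * Nat.card D := by
  rw [Subgroup.card_eq_card_quotient_mul_card_subgroup (D.subgroupOf N), Nat.card_congr e.toEquiv,
    Nat.card_congr (subgroupOfEquivOfLe hDN).toEquiv]

theorem pow_mem_quot {D N : Subgroup G} {X : Type*} [Group X] [Finite X]
    [hn : (D.subgroupOf N).Normal] (e : N ⧸ D.subgroupOf N ≃* X) {n : G} (hnN : n ∈ N) :
    n ^ (Nat.card X) ∈ D := by
  have h1 : e ((⟨n, hnN⟩ : N) : N ⧸ D.subgroupOf N) ^ (Nat.card X) = 1 := pow_card_eq_one'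
  rw [← map_pow, ← QuotientGroup.mk_pow] at h1
  have h2 := e.injective (h1.trans (map_one e).symm)
  rw [QuotientGroup.eq_one_iff, mem_subgroupOf] at h2
  exact h2

theorem card_D4 : Nat.card (DihedralGroup 4) = 8 := by
  rw [DihedralGroup.nat_card]

theorem card_alt5 : Nat.card (alternatingGroup (Fin 5)) = 60 := card_alt

theorem card_perm5 : Nat.card (Perm (Fin 5)) = 120 := by
  rw [Nat.card_eq_fintype_card, Fintype.card_perm, Fintype.card_fin]; rfl

section

variable {D : Subgroup G} {y z : G}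

theorem le_cent (hcomm : ∀ a ∈ D, ∀ b ∈ D, a * b = b * a) {y : G} (hy : y ∈ D) : D ≤ centralizer ({y} : Set G) := by
  intro t ht
  rw [mem_centralizer_singleton_iff]
  exact hcomm t ht y hy

/-- S3329 -/
theorem loc1 (hgen : Subgroup.closure {y, z} = D)
    (hcomm : IsMulCommutative D) (hcard : Nat.card D = 9) (hexp : ∀ a ∈ D, a ^ 3 = 1)
    (hC : Subgroup.centralizer (D : Set G) = D)
    (eN : Subgroup.normalizer (D : Set G) ⧸ D.subgroupOf (Subgroup.normalizer (D : Set G)) ≃* DihedralGroup 4)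
    (hyn : (D.subgroupOf (Subgroup.centralizer ({y} : Set G))).Normal)
    (hycard : Nat.card (Subgroup.centralizer ({y} : Set G)) = 18)
    [Finite G]
    (eC : Subgroup.centralizer ({z} : Set G) ≃* Multiplicative (ZMod 3) × alternatingGroup (Fin 5)) :
    Loc D y z 1 := by
  have hc : ∀ a ∈ D, ∀ b ∈ D, a * b = b * a := fun a ha b hb =>
    congrArg Subtype.val (hcomm.is_comm.comm ⟨a, ha⟩ ⟨b, hb⟩)
  have hy : y ∈ D := by rw [← hgen]; exact subset_closure (by simp)
  exact
  { e0 := by norm_num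
    e3 := by norm_num
    card := hcard
    comm := hc
    cube := hexp
    gen := hgen
    cC := by rw [hC, hcard]
    cN := by rw [card_quot le_normalizer eN, card_D4, hcard]
    eight := fun n hn => by
      rw [hC, ← card_D4]
      exact pow_mem_quot eN hn
    cy := by rw [hycard]
    yle := le_norm (le_cent hc hy) hyn
    cz := by rw [card_C3X eC, card_alt5]
    core := fun R hR hRn h3 => core_of five_alt eC R hR hRn h3
    simp := fun U hU hs hna => simp_of five_alt eC U hU hs hna }

/-- S3330 -/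
theorem loc2 (hgen : Subgroup.closure {y, z} = D)
    (hcomm : IsMulCommutative D) (hcard : Nat.card D = 9) (hexp : ∀ a ∈ D, a ^ 3 = 1)
    (hC : Nat.card (Subgroup.centralizer (D : Set G)) = 18)
    [hcn : ((Subgroup.centralizer (D : Set G)).subgroupOf (Subgroup.normalizer (D : Set G))).Normal]
    (eNC : Subgroup.normalizer (D : Set G) ⧸ (Subgroup.centralizer (D : Set G)).subgroupOf
      (Subgroup.normalizer (D : Set G)) ≃* DihedralGroup 4)
    (hyn : (D.subgroupOf (Subgroup.centralizer ({y} : Set G))).Normal)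
    (hycard : Nat.card (Subgroup.centralizer ({y} : Set G)) = 36)
    [Finite G]
    (eC : Subgroup.centralizer ({z} : Set G) ≃* Multiplicative (ZMod 3) × Equiv.Perm (Fin 5)) :
    Loc D y z 2 := by
  have hc : ∀ a ∈ D, ∀ b ∈ D, a * b = b * a := fun a ha b hb =>
    congrArg Subtype.val (hcomm.is_comm.comm ⟨a, ha⟩ ⟨b, hb⟩)
  have hy : y ∈ D := by rw [← hgen]; exact subset_closure (by simp)
  have hCN : centralizer (D : Set G) ≤ normalizer (D : Set G) := by
    intro c hcc
    rw [mem_normalizer_iff]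
    intro t
    constructor
    · intro ht
      have h1 : c * t = t * c := (mem_centralizer_iff.1 hcc t ht).symm
      rw [h1]; simpa using ht
    · intro ht
      have h1 : c * t * c⁻¹ * c = c * (c * t * c⁻¹) := mem_centralizer_iff.1 hcc _ ht
      have h2 : t = c * t * c⁻¹ := by
        have h3 : c⁻¹ * (c * t * c⁻¹ * c) = c⁻¹ * (c * (c * t * c⁻¹)) := by rw [h1]
        have h4 : c⁻¹ * (c * t * c⁻¹ * c) = t := by group
        have h5 : c⁻¹ * (c * (c * t * c⁻¹)) = c * t * c⁻¹ := by group
        rw [h4, h5] at h3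
        exact h3
      rw [h2]; exact ht
  exact
  { e0 := by norm_num
    e3 := by norm_num
    card := hcard
    comm := hc
    cube := hexp
    gen := hgen
    cC := by rw [hC]
    cN := by rw [card_quot hCN eNC, card_D4, hC]
    eight := fun n hn => by
      rw [← card_D4]
      exact pow_mem_quot eNC hn
    cy := by rw [hycard]
    yle := le_norm (le_cent hc hy) hyn
    cz := by rw [card_C3X eC, card_perm5]
    core := fun R hR hRn h3 => core_of five_perm eC R hR hRn h3
    simp := fun U hU hs hna => simp_of five_perm eC U hU hs hna }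

end

/-- no element of order divisible by ten in `(S₃ × S₅)⁺` -/
theorem no_ten (x : (((Equiv.Perm.sign).comp (MonoidHom.fst (Equiv.Perm (Fin 3)) (Equiv.Perm (Fin 5)))) *
        ((Equiv.Perm.sign).comp (MonoidHom.snd (Equiv.Perm (Fin 3)) (Equiv.Perm (Fin 5))))).ker)
    (h5 : 5 ∣ orderOf x) (h2 : 2 ∣ orderOf x) : False := by
  obtain ⟨⟨a, b⟩, hx⟩ := x
  have hs : Perm.sign a * Perm.sign b = 1 := hx
  rw [← orderOf_coe] at h5 h2
  change 5 ∣ orderOf (a, b) at h5
  change 2 ∣ orderOf (a, b) at h2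
  rcases dec5 b with hb | hb
  · have hsb : Perm.sign b = 1 := by
      have h3 : (Perm.sign b) ^ 5 = 1 := by rw [← map_pow, hb, map_one]
      have h4 : ∀ u : ℤˣ, u ^ 5 = 1 → u = 1 := by decide
      exact h4 _ h3
    have hsa : Perm.sign a = 1 := by rw [hsb, mul_one] at hs; exact hs
    have ha : a ^ 3 = 1 := by
      have h3 : ∀ a : Perm (Fin 3), Perm.sign a = 1 → a ^ 3 = 1 := by decide +kernel
      exact h3 a hsa
    have h3 : ((a, b) : Perm (Fin 3) × Perm (Fin 5)) ^ 15 = 1 := by
      rw [Prod.pow_mk, show 15 = 3 * 5 by norm_num, pow_mul, ha, one_pow, show 3 * 5 = 5 * 3 by norm_num, pow_mul, hb,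
        one_pow]
      rfl
    have h4 := h2.trans (orderOf_dvd_of_pow_eq_one h3)
    norm_num at h4
  · have ha : a ^ 6 = 1 := by
      have h3 : ∀ a : Perm (Fin 3), a ^ 6 = 1 := by decide +kernel
      exact h3 a
    have h3 : ((a, b) : Perm (Fin 3) × Perm (Fin 5)) ^ 12 = 1 := by
      rw [Prod.pow_mk, hb, show 12 = 6 * 2 by norm_num, pow_mul, ha, one_pow]
      rfl
    have h4 := h5.trans (orderOf_dvd_of_pow_eq_one h3)
    norm_num at h4

end Cfsg.Agent.H975.A8Loc
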